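import Mathlib
import Cfsg.Prelude.Def_Classical
import Cfsg.Agent.S0288

set_option autoImplicit false

namespace Cfsg.Agent.Lib.Helper63.Syl8

/-- [CO] -/
theorem card_O (K : Type) [Field K] [Fintype K] (hK : Fintype.card K = 2) (a b : K)
    (hab : ∀ z₁ z₂ : K, z₁ ^ 2 + a * z₁ * z₂ + b * z₂ ^ 2 = 0 → z₁ = 0 ∧ z₂ = 0) :
    Nat.card ↥(Cfsg.isometryGroup K (Cfsg.quadFormMinus 2 K a b)) = 2 ^ 7 * 405 := by
  have h := Cfsg.Agent.S0288.result (q := 2) hK 3 (by norm_num) a b hab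
  have e : (3 - 1 : ℕ) = 2 := rfl
  rw [e] at h
  rw [h]
  norm_num [Finset.prod_range_succ]

end Cfsg.Agent.Lib.Helper63.Syl8
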