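import Mathlib
import Cfsg.Prelude.Def_Classical

set_option autoImplicit false

namespace Cfsg.Agent.Lib.Helper63.Syl8

open Matrix

theorem OTR_mem {ι : Type} [Fintype ι] [DecidableEq ι] {F : Type*} [Field F]
    {Q : (ι → F) → F} {g : GL ι F} :
    g ∈ Cfsg.isometryGroup F Q ↔ ∀ u, Q ((g : Matrix ι ι F) *ᵥ u) = Q u := by
  constructor
  · intro h u; exact h u u
  · intro h u _; exact h u

theorem OTR_zero_or_one (K : Type) [Field K] [Fintype K] (hK : Fintype.card K = 2) (x : K) :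
    x = 0 ∨ x = 1 := by
  classical
  by_contra hx
  push Not at hx
  have h3 : ({0, 1, x} : Finset K).card = 3 := by
    rw [Finset.card_insert_of_notMem, Finset.card_insert_of_notMem, Finset.card_singleton]
    · simpa using hx.2.symm
    · simp only [Finset.mem_insert, Finset.mem_singleton, not_or]
      exact ⟨zero_ne_one, hx.1.symm⟩
  have := Finset.card_le_univ ({0, 1, x} : Finset K)
  omega

/-- [OTR] transport of the orthogonal group from `ZMod 2`. -/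
theorem exists_isometry_hom (K : Type) [Field K] [Fintype K] (hK : Fintype.card K = 2) (a b : K)
    (hab : ∀ z₁ z₂ : K, z₁ ^ 2 + a * z₁ * z₂ + b * z₂ ^ 2 = 0 → z₁ = 0 ∧ z₂ = 0) :
    ∃ φ : ↥(Cfsg.isometryGroup (ZMod 2) (Cfsg.quadFormMinus 2 (ZMod 2) 1 1)) →*
        ↥(Cfsg.isometryGroup K (Cfsg.quadFormMinus 2 K a b)), Function.Injective φ := by
  have hb : b = 1 := by
    rcases OTR_zero_or_one K hK b with h | h
    · exfalso
      have := (hab 0 1 (by rw [h]; ring)).2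
      exact one_ne_zero this
    · exact h
  have h2 : (1 : K) + 1 = 0 := by
    rcases OTR_zero_or_one K hK (1 + 1) with h | h
    · exact h
    · exfalso
      have : (1 : K) = 0 := by linear_combination h
      exact one_ne_zero this
  have ha : a = 1 := by
    rcases OTR_zero_or_one K hK a with h | h
    · exfalso
      have := (hab 1 1 (by rw [h, hb]; linear_combination h2)).1
      exact one_ne_zero this
    · exact h
  subst ha hb
  let e : ZMod 2 ≃+* K := ZMod.ringEquivOfPrime K Nat.prime_two hK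
  have hQ : ∀ w : (Fin 2 ⊕ Fin 2) ⊕ Fin 2 → ZMod 2,
      Cfsg.quadFormMinus 2 K 1 1 (fun i => e (w i)) = e (Cfsg.quadFormMinus 2 (ZMod 2) 1 1 w) := by
    intro w
    simp only [Cfsg.quadFormMinus, map_sum, map_mul, map_add, map_pow, map_one]
  have hmv : ∀ (M : Matrix ((Fin 2 ⊕ Fin 2) ⊕ Fin 2) ((Fin 2 ⊕ Fin 2) ⊕ Fin 2) (ZMod 2))
      (w : (Fin 2 ⊕ Fin 2) ⊕ Fin 2 → ZMod 2),
      (M.map (e : ZMod 2 →+* K)) *ᵥ (fun i => e (w i)) = fun i => e ((M *ᵥ w) i) := by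
    intro M w
    ext i
    simp [Matrix.mulVec, dotProduct, map_mul]
  let Ψ : GL ((Fin 2 ⊕ Fin 2) ⊕ Fin 2) (ZMod 2) →* GL ((Fin 2 ⊕ Fin 2) ⊕ Fin 2) K :=
    Matrix.GeneralLinearGroup.map (e : ZMod 2 →+* K)
  have hΨ : ∀ g : GL ((Fin 2 ⊕ Fin 2) ⊕ Fin 2) (ZMod 2),
      ((Ψ g : GL ((Fin 2 ⊕ Fin 2) ⊕ Fin 2) K) :
          Matrix ((Fin 2 ⊕ Fin 2) ⊕ Fin 2) ((Fin 2 ⊕ Fin 2) ⊕ Fin 2) K)
        = (g : Matrix ((Fin 2 ⊕ Fin 2) ⊕ Fin 2) ((Fin 2 ⊕ Fin 2) ⊕ Fin 2) (ZMod 2)).map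
          (e : ZMod 2 →+* K) := fun g => rfl
  have hmem : ∀ g : ↥(Cfsg.isometryGroup (ZMod 2) (Cfsg.quadFormMinus 2 (ZMod 2) 1 1)),
      Ψ g.1 ∈ Cfsg.isometryGroup K (Cfsg.quadFormMinus 2 K 1 1) := by
    intro g
    rw [OTR_mem]
    intro u
    have hu : u = fun i => e (e.symm (u i)) := by ext i; simp
    rw [hu, hΨ, hmv, hQ, hQ, OTR_mem.1 g.2]
  refine ⟨(Ψ.comp (Subgroup.subtype _)).codRestrict _ hmem, ?_⟩
  intro g g' hgg
  have h1 : Ψ g.1 = Ψ g'.1 := congrArg Subtype.val hgg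
  apply Subtype.ext
  apply Units.ext
  ext i j
  have h3 := congrFun (congrFun (congrArg (fun u : GL ((Fin 2 ⊕ Fin 2) ⊕ Fin 2) K =>
    (u : Matrix ((Fin 2 ⊕ Fin 2) ⊕ Fin 2) ((Fin 2 ⊕ Fin 2) ⊕ Fin 2) K)) h1) i) j
  simp only [hΨ, Matrix.map_apply] at h3
  exact e.injective h3

end Cfsg.Agent.Lib.Helper63.Syl8
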